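import Mathlib
import Cfsg.Agent.Lib.Helper58.SpecProd.Defs

/-!
# Element orders of direct products of `PSL_n(q)`: assembly of the packages
-/

set_option autoImplicit false

namespace Cfsg.Agent.Lib.Helper58.SpecProd

open Polynomial

universe u

theorem main2513 (hA : PkgPowA.{u}) (hB : PkgPow2B.{u}) (hAr : PkgPow2Arith.{u})
    {F : Type u} [Field F] [Fintype F] (hF : Fintype.card F = 2) (n k : ℕ) (hn : 2 ≤ n)
    (hk : (n + 3) / 2 ≤ k) :
    Set.range (orderOf : (Fin k → Matrix.ProjectiveSpecialLinearGroup (Fin n) F) → ℕ) =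
      Set.range (orderOf : (Fin ((n + 3) / 2) → Matrix.ProjectiveSpecialLinearGroup (Fin n) F) → ℕ) := by
  refine hAr n hn ?_ (fun d hd1 hdn => hB hF n d hd1 hdn) k hk
  intro g s e hs hs2 hdvd
  have hns : ¬ s ∣ Fintype.card F := by
    rw [hF]
    intro h
    exact hs2 ((Nat.prime_dvd_prime_iff_eq hs Nat.prime_two).mp h)
  have := hA n (by omega) g s e hs hns hdvd
  rwa [hF] at this

theorem main2510 (hA3 : PkgAbs3.{u}) (hA2 : PkgAbs2.{u}) (hS : PkgSingerPSL.{u}) (hZ : PkgZ.{u})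
    (hDI : PkgDI.{u}) (hU : PkgU.{u})
    {F : Type u} [Field F] [Fintype F] (p a n r m : ℕ) (hp : p.Prime) (ha : 1 ≤ a)
    (hF : Fintype.card F = p ^ a) (hn : 2 ≤ n) (hr : r.Prime) (hrq : r ∣ Fintype.card F - 1)
    (hrn : ¬ r ∣ n) :
    Set.range (orderOf : Matrix.ProjectiveSpecialLinearGroup (Fin n) F × Matrix.ProjectiveSpecialLinearGroup (Fin n) F × Matrix.ProjectiveSpecialLinearGroup (Fin n) F × Multiplicative (Fin m → ZMod r) → ℕ) =
      Set.range (orderOf : Matrix.ProjectiveSpecialLinearGroup (Fin n) F × Matrix.ProjectiveSpecialLinearGroup (Fin n) F × Matrix.ProjectiveSpecialLinearGroup (Fin n) F → ℕ) ∧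
    ((¬ ∃ j : ℕ, n - 1 = p ^ j) →
      Set.range (orderOf : Matrix.ProjectiveSpecialLinearGroup (Fin n) F × Matrix.ProjectiveSpecialLinearGroup (Fin n) F × Multiplicative (Fin m → ZMod r) → ℕ) =
        Set.range (orderOf : Matrix.ProjectiveSpecialLinearGroup (Fin n) F × Matrix.ProjectiveSpecialLinearGroup (Fin n) F → ℕ)) := by
  have hrp : r ≠ p := by
    rintro rfl
    rw [hF] at hrq
    have h1 : r ∣ r ^ a := dvd_pow_self r (by omega)
    have h2 : 1 ≤ r ^ a := Nat.one_le_pow _ _ hp.pos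
    have h3 : r ∣ (r ^ a - 1) + 1 := by rw [Nat.sub_add_cancel h2]; exact h1
    have h4 : r ∣ 1 := (Nat.dvd_add_right hrq).mp h3
    exact hp.one_lt.ne' (Nat.dvd_one.mp h4)
  refine ⟨hA3 p r (sig (Fintype.card F) n) m hp hr hrp (hZ n r hn hr hrq hrn) (hS n hn)
    (fun x hx => hDI p a n r hp hF hn hr hrq hrn x hx), fun hnp => ?_⟩
  exact hA2 p r (sig (Fintype.card F) n) m hp hr hrp (hS n hn)
    (fun x hx => hDI p a n r hp hF hn hr hrq hrn x hx)
    (fun x hx => hU p a n r hp hF hn hr hrq hrn hnp x hx)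

end Cfsg.Agent.Lib.Helper58.SpecProd
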